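import Cfsg.Agent.H891.DG.Defs
import Cfsg.Agent.H490.Der
import Cfsg.Agent.H137.SpTransfer

/-!
# TEAM GEN, S4180, K9b: derivations of `PSp_2m(q)` in the defining characteristic (helper795)

`cohAt_psp`: `PSp_2m(q) = ⟨s, u w⟩` with `s` a Singer element (of order prime to `p`) inverted by `w`. If `s` has a
nonzero fixed vector, `small_of_fixed`. Otherwise a derivation vanishing on `s` vanishes on `w` and on the element `z`
(commuting with `s`, inverting `u`), and the involution `z u` gives a condition on the value on `u w`.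
-/

set_option autoImplicit false

namespace Cfsg.Agent.H795.DG

open Cfsg Subgroup Cfsg.Agent.H440.TwoGen Cfsg.Agent.H891.Gen Cfsg.Agent.H891.DG Cfsg.Agent.H490.Der
open Cfsg.Agent.H137.SpModel
open scoped Matrix

universe u

section abs

variable {T V : Type*} [Group T] [AddCommGroup V] [DistribMulAction T V]

/-- the counting core -/
theorem small_core [Finite T] [Finite V] {p : ℕ} (hp : p.Prime) (hV : ∀ v : V, p • v = 0) {s w z y : T}
    (gen : closure ({s, y * w} : Set T) = ⊤) {n : ℕ} (hn : s ^ n = 1) (hpn : ¬ p ∣ n)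
    (hw : w * s = s⁻¹ * w) (hz : z * s = s * z) (hc2 : (z * y) ^ 2 = 1) (hne : ∃ v : V, v + (z * y) • v ≠ 0) :
    Small T V := by
  by_cases hfix : ∃ v : V, v ≠ 0 ∧ s • v = v
  · obtain ⟨v, hv, hsv⟩ := hfix
    exact small_of_fixed hp hV gen hn hpn hv hsv
  · push Not at hfix
    obtain ⟨v, hv⟩ := hne
    refine small_of_pair gen ⟨0, z⁻¹ • v, ?_⟩
    rintro ⟨d, hd, hds, hdb⟩
    have h0 : ∀ x : V, s • x = x → x = 0 := fun x hx => by
      by_contra h1
      exact hfix x h1 hx
    have hdsi : d s⁻¹ = 0 := by rw [hd.inv, hds, smul_zero, neg_zero]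
    have hdw : d w = 0 := by
      apply h0
      have h1 : d (w * s) = d (s⁻¹ * w) := by rw [hw]
      rw [hd w s, hd s⁻¹ w, hds, hdsi, smul_zero, add_zero, zero_add] at h1
      nth_rw 1 [h1]
      rw [smul_inv_smul]
    have hdz : d z = 0 := by
      apply h0
      have h1 : d (z * s) = d (s * z) := by rw [hz]
      rw [hd z s, hd s z, hds, smul_zero, add_zero, zero_add] at h1
      exact h1.symm
    have hdy : d y = z⁻¹ • v := by
      rw [hd y w, hdw, smul_zero, add_zero] at hdb
      exact hdb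
    have hdc : d (z * y) = v := by
      rw [hd z y, hdz, zero_add, hdy, smul_inv_smul]
    apply hv
    have h2 : d ((z * y) ^ 2) = 0 := by rw [hc2, hd.one]
    rw [pow_two, hd, hdc] at h2
    exact h2

theorem faithful [IsSimpleGroup T] (h : ∃ (g : T) (v : V), g • v ≠ v) {g : T} (hg : ∀ v : V, g • v = v) : g = 1 := by
  let K : Subgroup T := (MulAction.toPermHom T V).ker
  have hK : ∀ x, x ∈ K ↔ ∀ v : V, x • v = v := by
    intro x
    rw [MonoidHom.mem_ker]
    constructor
    · intro h1 v
      exact congrArg (fun f : Equiv.Perm V => f v) h1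
    · intro h1
      exact Equiv.ext h1
  have hN : K.Normal := inferInstance
  rcases hN.eq_bot_or_eq_top with h1 | h1
  · have : g ∈ K := (hK g).2 hg
    rw [h1, mem_bot] at this
    exact this
  · obtain ⟨x, v, hx⟩ := h
    exact absurd ((hK x).1 (by rw [h1]; exact mem_top x) v) hx

/-- a noncentral element does not act as `-1` -/
theorem exists_add_ne [IsSimpleGroup T] (h : ∃ (g : T) (v : V), g • v ≠ v) {c t : T} (hc : c * t ≠ t * c) :
    ∃ v : V, v + c • v ≠ 0 := by
  by_contra hne
  push Not at hne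
  have h1 : ∀ v : V, c • v = - v := fun v => (neg_eq_of_add_eq_zero_right (hne v)).symm
  apply hc
  have h2 : c * t * (t * c)⁻¹ = 1 := by
    apply faithful h
    intro v
    have h3 : ∀ v : V, (c * t) • v = (t * c) • v := by
      intro v
      rw [mul_smul, mul_smul, h1, h1, smul_neg]
    rw [mul_smul, h3, smul_inv_smul]
  exact mul_inv_eq_one.1 h2

end abs

section model

variable {F K : Type*} [Field F] [Field K] [Algebra F K]

/-- `-1` on the last two coordinates -/
def z0 : M F K ≃ₗ[F] M F K where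
  toFun v := (v.1, v.2.1, -v.2.2.1, -v.2.2.2)
  invFun v := (v.1, v.2.1, -v.2.2.1, -v.2.2.2)
  map_add' u v := by
    ext
    · simp
    · simp
    · simp; abel
    · simp; abel
  map_smul' a v := by ext <;> simp
  left_inv v := by ext <;> simp
  right_inv v := by ext <;> simp

theorem z0_apply (v : M F K) : z0 (F := F) (K := K) v = (v.1, v.2.1, -v.2.2.1, -v.2.2.2) := rfl

theorem z0_mem : z0 (F := F) (K := K) ∈ Sp F K := by
  intro u v
  simp only [z0_apply, B_def]
  ring

theorem z0_S (c : Kˣ) : z0 * S (F := F) c = S c * z0 := by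
  apply LinearEquiv.ext
  intro v
  show z0 (S c v) = S c (z0 v)
  simp only [z0_apply, S_apply]

theorem z0_U (z : K) : U (F := F) z * z0 = z0 * U (-z) := by
  apply LinearEquiv.ext
  intro v
  show U z (z0 v) = z0 (U (-z) v)
  simp only [z0_apply, U_apply]
  ext
  · simp
  · simp
  · simp; abel
  · simp

theorem z0_z0 : z0 (F := F) (K := K) * z0 = 1 := by
  apply LinearEquiv.ext
  intro v
  show z0 (z0 v) = v
  simp only [z0_apply, neg_neg]

variable {k : ℕ}

theorem psi_injective [FiniteDimensional F K] [Algebra.IsSeparable F K] (b : Module.Basis (Fin k) F K) :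
    Function.Injective (Cfsg.Agent.H137.psi b) := by
  intro x y h
  apply Subtype.ext
  apply LinearEquiv.ext
  intro v
  have h1 : ∀ t, (Cfsg.Agent.H137.Phi b).symm ((x : M F K ≃ₗ[F] M F K) (Cfsg.Agent.H137.Phi b t)) =
      (Cfsg.Agent.H137.Phi b).symm ((y : M F K ≃ₗ[F] M F K) (Cfsg.Agent.H137.Phi b t)) := by
    intro t
    rw [← Cfsg.Agent.H137.psi_mulVec, ← Cfsg.Agent.H137.psi_mulVec, h]
  have h2 := h1 ((Cfsg.Agent.H137.Phi b).symm v)
  rw [LinearEquiv.apply_symm_apply] at h2
  exact (Cfsg.Agent.H137.Phi b).symm.injective h2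

/-- the images of two elements generating all the transvections -/
theorem gen_top [FiniteDimensional F K] [Algebra.IsSeparable F K] (b : Module.Basis (Fin k) F K)
    {a c : M F K ≃ₗ[F] M F K} (ha : a ∈ Sp F K) (hc' : c ∈ Sp F K)
    (hac : ∀ (u : M F K) (t : F), ∃ g ∈ Subgroup.closure {a, c}, ∀ v, g v = v + (t * B v u) • u) :
    Subgroup.closure ({Cfsg.Agent.H137.psi b ⟨a, ha⟩, Cfsg.Agent.H137.psi b ⟨c, hc'⟩} :
      Set (Matrix.symplecticGroup (Fin (k + 1)) F)) = ⊤ := by
  rw [eq_top_iff, ← Cfsg.Agent.S0765.result, Subgroup.closure_le]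
  rintro A ⟨w, t, hA⟩
  obtain ⟨g, hg, hgv⟩ := hac (Cfsg.Agent.H137.Phi b w) t
  have hgS : g ∈ Sp F K := by
    refine (?_ : Subgroup.closure {a, c} ≤ Sp F K) hg
    rw [Subgroup.closure_le]
    rintro x (rfl | rfl)
    · exact ha
    · exact hc'
  have e1 : Cfsg.Agent.H137.psi b ⟨g, hgS⟩ = A := by
    apply Subtype.ext
    rw [← Matrix.mulVec_injective.eq_iff]
    funext x
    show (Cfsg.Agent.H137.psi b ⟨g, hgS⟩ : Matrix (Fin (k + 1) ⊕ Fin (k + 1)) (Fin (k + 1) ⊕ Fin (k + 1)) F) *ᵥ x =
      A.1 *ᵥ x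
    rw [Cfsg.Agent.H137.psi_mulVec, hA, Cfsg.Agent.ClassicalGeometry.SympBasic.sympTransvection_mulVec]
    show (Cfsg.Agent.H137.Phi b).symm (g (Cfsg.Agent.H137.Phi b x)) = _
    rw [hgv, map_add, map_smul, LinearEquiv.symm_apply_apply, LinearEquiv.symm_apply_apply,
      Cfsg.Agent.H137.B_Phi]
  have e2 : (⟨g, hgS⟩ : Sp F K) ∈ Subgroup.closure ({⟨a, ha⟩, ⟨c, hc'⟩} : Set (Sp F K)) := by
    have e3 : Subgroup.map (Sp F K).subtype (Subgroup.closure ({⟨a, ha⟩, ⟨c, hc'⟩} : Set (Sp F K))) =
        Subgroup.closure {a, c} := by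
      rw [MonoidHom.map_closure, Set.image_pair]
      rfl
    rw [← e3] at hg
    obtain ⟨g', hg', e4⟩ := hg
    have e5 : g' = ⟨g, hgS⟩ := Subtype.ext e4
    rwa [e5] at hg'
  have e6 := Subgroup.mem_map_of_mem (Cfsg.Agent.H137.psi b) e2
  rw [MonoidHom.map_closure, Set.image_pair, e1] at e6
  exact e6

end model

/-- **`PSp_2m(q)` in the defining characteristic.** -/
theorem cohAt_psp {T : Type u} [Group T] [Finite T] [IsSimpleGroup T] {F : Type} [Field F] [Fintype F] {m : ℕ}
    (hm : 2 ≤ m) (h3 : m = 2 → 3 ≤ Fintype.card F) (e : Nonempty (T ≃* Cfsg.PSp m F)) {p : ℕ} (hp : p.Prime)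
    [CharP F p] : CohAt p T := by
  intro V _ _ _ hV hirr hnt
  obtain ⟨e⟩ := e
  obtain ⟨k, rfl⟩ : ∃ k, m = k + 1 := ⟨m - 1, by omega⟩
  have hk : k ≠ 0 := by omega
  have hc : 2 < Nat.card F ^ k := by
    rw [Nat.card_eq_fintype_card]
    have h2 : 2 ≤ Fintype.card F := Fintype.one_lt_card
    by_cases hk : k = 1
    · rw [hk, pow_one]
      exact h3 (by omega)
    · calc 2 < 2 ^ 2 := by norm_num
        _ ≤ 2 ^ k := Nat.pow_le_pow_right (by norm_num) (by omega)
        _ ≤ Fintype.card F ^ k := Nat.pow_le_pow_left h2 k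
  obtain ⟨K, _, _, _, hK⟩ := Cfsg.Agent.H137.exists_ext F k hk
  have : FiniteDimensional F K := Module.finite_of_finrank_pos (by omega)
  have : Algebra.IsSeparable F K := inferInstance
  let b : Module.Basis (Fin k) F K := (Module.finBasis F K).reindex (finCongr hK)
  have hcard : 2 < Nat.card K := by
    rwa [Module.natCard_eq_pow_finrank (K := F) (V := K), hK]
  obtain ⟨g, hg⟩ := IsCyclic.exists_generator (α := Kˣ)
  have hg1 : g ≠ 1 := by
    rintro rfl
    have h1 : Nat.card Kˣ = 1 := by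
      rw [Nat.card_eq_one_iff_unique]
      refine ⟨⟨fun a b => ?_⟩, ⟨1⟩⟩
      have h2 := hg a
      have h3 := hg b
      rw [Subgroup.zpowers_one_eq_bot, Subgroup.mem_bot] at h2 h3
      rw [h2, h3]
    rw [Nat.card_units] at h1
    omega
  have hgK : (g : K) - 1 ≠ 0 := by
    intro h
    apply hg1
    apply Units.ext
    rw [Units.val_one]
    linear_combination h
  -- the homomorphism
  let π : Sp F K →* T := e.symm.toMonoidHom.comp ((QuotientGroup.mk' _).comp (Cfsg.Agent.H137.psi b))
  have hπ : ∀ x : Sp F K, π x = 1 → ∀ y : Sp F K, x * y = y * x := by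
    intro x hx y
    have h1 : (QuotientGroup.mk' (Subgroup.center (Matrix.symplecticGroup (Fin (k + 1)) F)))
        (Cfsg.Agent.H137.psi b x) = 1 := by
      apply e.symm.injective
      rw [map_one]
      exact hx
    have h2 : Cfsg.Agent.H137.psi b x ∈ Subgroup.center (Matrix.symplecticGroup (Fin (k + 1)) F) :=
      (QuotientGroup.eq_one_iff _).1 h1
    apply psi_injective b
    rw [map_mul, map_mul]
    exact ((Subgroup.mem_center_iff.1 h2) _).symm
  let xs : Sp F K := ⟨S g, S_mem g⟩
  let xw : Sp F K := ⟨w, w_mem⟩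
  let xu : Sp F K := ⟨U 1, U_mem 1⟩
  let xz : Sp F K := ⟨z0, z0_mem⟩
  let xd : Sp F K := ⟨U ((g : K) - 1), U_mem _⟩
  have r1 : xw * xs = xs⁻¹ * xw := by
    apply Subtype.ext
    show w * S (F := F) g = (S (F := F) g)⁻¹ * w
    rw [← S_inv, ← w_S]
    group
  have r2 : xz * xs = xs * xz := Subtype.ext (z0_S g)
  have r3 : (xz * xu) ^ 2 = 1 := by
    apply Subtype.ext
    show (z0 * U (F := F) (1 : K)) ^ 2 = 1
    rw [pow_two]
    calc z0 * U (F := F) (1 : K) * (z0 * U (F := F) (1 : K)) = z0 * (U (F := F) (1 : K) * z0) * U (F := F) (1 : K) := by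
          group
      _ = z0 * (z0 * U (F := F) (-1 : K)) * U (F := F) (1 : K) := by rw [z0_U]
      _ = (z0 * z0) * (U (F := F) (-1 : K) * U (F := F) (1 : K)) := by group
      _ = 1 := by rw [z0_z0, ← U_add, neg_add_cancel, U_zero, mul_one]
  have r4 : (xz * xu) * xs = xd * (xs * (xz * xu)) := by
    apply Subtype.ext
    show z0 * U (F := F) (1 : K) * S (F := F) g = U (F := F) ((g : K) - 1) * (S (F := F) g * (z0 * U (F := F) (1 : K)))
    have h1 : S (F := F) g * U (F := F) (1 : K) = U (F := F) (g : K) * S (F := F) g := by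
      have := S_U (F := F) g (1 : K)
      rw [mul_one] at this
      rw [← this]; group
    calc z0 * U (F := F) (1 : K) * S (F := F) g
        = z0 * U (F := F) (-((g : K) - 1) + (g : K)) * S (F := F) g := by congr 3; ring
      _ = (z0 * U (F := F) (-((g : K) - 1))) * (U (F := F) (g : K) * S (F := F) g) := by rw [U_add]; group
      _ = (U (F := F) ((g : K) - 1) * z0) * (S (F := F) g * U (F := F) (1 : K)) := by rw [z0_U, h1]
      _ = U (F := F) ((g : K) - 1) * (z0 * S (F := F) g) * U (F := F) (1 : K) := by group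
      _ = U (F := F) ((g : K) - 1) * (S (F := F) g * (z0 * U (F := F) (1 : K))) := by rw [z0_S]; group
  have hd : xd * xw ≠ xw * xd := by
    intro h
    have h1 := congrArg (fun x : Sp F K => (x : M F K ≃ₗ[F] M F K) (0, 0, 0, 1)) h
    have h2 : U (F := F) ((g : K) - 1) (w (F := F) (K := K) (0, 0, 0, 1)) =
        w (F := F) (K := K) (U (F := F) ((g : K) - 1) (0, 0, 0, 1)) := h1
    have h3 := congrArg Prod.fst h2
    simp only [U_apply, w_apply] at h3
    apply hgK
    simpa using h3
  have hnc : π (xz * xu) * π xs ≠ π xs * π (xz * xu) := by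
    intro h
    rw [← map_mul, ← map_mul, r4, map_mul] at h
    have h1 : π xd = 1 := by
      have := mul_eq_right.1 h
      exact this
    exact hd (hπ xd h1 xw)
  -- generation
  have gen : closure ({π xs, π xu * π xw} : Set T) = ⊤ := by
    have h1 : closure ({Cfsg.Agent.H137.psi b xs, Cfsg.Agent.H137.psi b (xu * xw)} :
        Set (Matrix.symplecticGroup (Fin (k + 1)) F)) = ⊤ := by
      refine gen_top b (S_mem g) ((Sp F K).mul_mem (U_mem 1) w_mem) ?_
      set H := Subgroup.closure {S (F := F) g, U (F := F) (1 : K) * w} with hH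
      have h1 : S (F := F) g ∈ H := Subgroup.subset_closure (by simp)
      have h2 : U (F := F) (1 : K) * w ∈ H := Subgroup.subset_closure (by simp)
      have hHS : H ≤ Sp F K := by
        rw [hH, Subgroup.closure_le]
        rintro x (rfl | rfl)
        · exact S_mem g
        · exact (Sp F K).mul_mem (U_mem 1) w_mem
      obtain ⟨hU, hw⟩ := U_w_mem hg hg1 h1 h2
      intro u c
      exact X_all hHS hU hw u c
    have h2 := congrArg (Subgroup.map (e.symm.toMonoidHom.comp (QuotientGroup.mk' _))) h1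
    rw [MonoidHom.map_closure, Set.image_pair, ← MonoidHom.range_eq_map, MonoidHom.range_eq_top.2
      (e.symm.surjective.comp (QuotientGroup.mk'_surjective _))] at h2
    rw [← map_mul]
    exact h2
  -- the order of `s`
  have hchar : CharP K p := charP_of_injective_algebraMap (FaithfulSMul.algebraMap_injective F K) p
  have hpn : ¬ p ∣ Nat.card Kˣ := by
    rw [Nat.card_units]
    have := Fact.mk hp
    have := Fintype.ofFinite K
    obtain ⟨j, -, hj⟩ := FiniteField.card K p
    rw [Nat.card_eq_fintype_card, hj]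
    intro h
    have h1 : p ∣ p ^ (j : ℕ) := dvd_pow_self p j.2.ne'
    have h2 : 1 ≤ p ^ (j : ℕ) := Nat.one_le_pow _ _ hp.pos
    have h3 := (Nat.dvd_sub h1 h)
    rw [Nat.sub_sub_self h2] at h3
    exact hp.one_lt.ne' (Nat.dvd_one.1 h3)
  have hsn : π xs ^ Nat.card Kˣ = 1 := by
    rw [← map_pow]
    have h1 : xs ^ Nat.card Kˣ = 1 := by
      apply Subtype.ext
      show S (F := F) g ^ Nat.card Kˣ = 1
      have h2 : S (F := F) (g ^ Nat.card Kˣ) = S (F := F) g ^ Nat.card Kˣ := map_pow SHom g _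
      rw [← h2, pow_card_eq_one', S_one]
    rw [h1, map_one]
  refine small_core hp hV gen hsn hpn (z := π xz) ?_ ?_ ?_ ?_
  · rw [← map_mul, r1, map_mul, map_inv]
  · rw [← map_mul, r2, map_mul]
  · rw [← map_mul, ← map_pow, r3, map_one]
  · rw [← map_mul]
    exact exists_add_ne hnt hnc

end Cfsg.Agent.H795.DG
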